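import Mathlib.LinearAlgebra.TensorProduct.Tower
import Mathlib.RingTheory.Ideal.Operations
import Mathlib.RingTheory.TensorProduct.Basic

/-!
# `M → (R₁ ⊗ M) / J` is bijective when `R → R₁ / J` is onto with kernel killing `M`
-/

set_option autoImplicit false

namespace Groth.Agent.Gaga.H940.ThetaBij

open TensorProduct

/-- [TH] -/
theorem theta_bijective {R R1 M Q : Type*} [CommRing R] [CommRing R1] [Algebra R R1]
    [AddCommGroup M] [Module R M] [AddCommGroup Q] [Module R1 Q] (J : Ideal R1)
    (hs : ∀ a : R1, ∃ b : R, a - algebraMap R R1 b ∈ J)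
    (hk : ∀ b : R, algebraMap R R1 b ∈ J → ∀ m : M, b • m = 0)
    (π : TensorProduct R R1 M →ₗ[R1] Q) (hπ : Function.Surjective π)
    (hker : LinearMap.ker π = J • ⊤) :
    Function.Bijective (fun m : M => π (TensorProduct.tmul R 1 m)) := by
  choose b hb using hs
  -- comparison of lifts
  have key : ∀ (c c' : R), algebraMap R R1 c - algebraMap R R1 c' ∈ J → ∀ m : M, c • m = c' • m := by
    intro c c' h m
    have h1 := hk (c - c') (by rw [map_sub]; exact h) m
    rwa [sub_smul, sub_eq_zero] at h1
  let f : R1 →ₗ[R] M →ₗ[R] M := LinearMap.mk₂ R (fun a m => b a • m)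
    (fun a a' m => by
      change b (a + a') • m = b a • m + b a' • m
      rw [← add_smul]
      refine key _ _ ?_ m
      have h1 := J.sub_mem (J.add_mem (hb a) (hb a')) (hb (a + a'))
      rw [map_add]
      convert h1 using 1
      ring)
    (fun r a m => by
      change b (r • a) • m = r • (b a • m)
      rw [smul_smul]
      refine key _ _ ?_ m
      have h1 := J.sub_mem (J.mul_mem_left (algebraMap R R1 r) (hb a)) (hb (r • a))
      rw [map_mul]
      convert h1 using 1
      rw [Algebra.smul_def]
      ring)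
    (fun a m m' => smul_add _ _ _)
    (fun r a m => by
      change b a • (r • m) = r • (b a • m)
      rw [smul_smul, smul_smul, mul_comm])
  let ρ : R1 ⊗[R] M →ₗ[R] M := TensorProduct.lift f
  have hρ : ∀ (a : R1) (m : M), ρ (a ⊗ₜ m) = b a • m := fun a m => rfl
  have hρ1 : ∀ m : M, ρ ((1 : R1) ⊗ₜ m) = m := by
    intro m
    rw [hρ]
    have h1 := key (b 1) 1 (by
      have := J.neg_mem (hb 1)
      rw [map_one]
      convert this using 1
      ring) m
    rw [h1, one_smul]
  have hρJ : ∀ (j : R1), j ∈ J → ∀ x : R1 ⊗[R] M, ρ (j • x) = 0 := by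
    intro j hj x
    induction x with
    | zero => rw [smul_zero, map_zero]
    | add x y hx hy => rw [smul_add, map_add, hx, hy, add_zero]
    | tmul a m =>
      rw [TensorProduct.smul_tmul', hρ]
      refine hk _ ?_ m
      have h1 := J.sub_mem (J.mul_mem_right a hj) (hb (j • a))
      convert h1 using 1
      rw [smul_eq_mul]
      ring
  have hρK : ∀ x ∈ (J • ⊤ : Submodule R1 (R1 ⊗[R] M)), ρ x = 0 := by
    intro x hx
    refine Submodule.smul_induction_on hx (fun r hr n _ => hρJ r hr n) ?_
    intro x y hx hy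
    rw [map_add, hx, hy, add_zero]
  constructor
  · intro m m' h
    have h1 : (1 : R1) ⊗ₜ[R] m - (1 : R1) ⊗ₜ[R] m' ∈ LinearMap.ker π := by
      rw [LinearMap.mem_ker, map_sub, sub_eq_zero]
      exact h
    rw [hker] at h1
    have h2 := hρK _ h1
    rw [map_sub, hρ1, hρ1, sub_eq_zero] at h2
    exact h2
  · intro q
    obtain ⟨x, rfl⟩ := hπ q
    induction x with
    | zero => exact ⟨0, by simp⟩
    | add x y hx hy =>
      obtain ⟨m, hm⟩ := hx
      obtain ⟨m', hm'⟩ := hy
      refine ⟨m + m', ?_⟩
      simp only at hm hm' ⊢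
      rw [TensorProduct.tmul_add, map_add, map_add, hm, hm']
    | tmul a m =>
      refine ⟨b a • m, ?_⟩
      have h1 : a ⊗ₜ[R] m = (1 : R1) ⊗ₜ[R] (b a • m) + (a - algebraMap R R1 (b a)) • ((1 : R1) ⊗ₜ[R] m) := by
        rw [TensorProduct.smul_tmul', smul_eq_mul, mul_one, ← TensorProduct.smul_tmul, ← TensorProduct.add_tmul,
          Algebra.smul_def, mul_one, add_sub_cancel]
      have h2 : (a - algebraMap R R1 (b a)) • ((1 : R1) ⊗ₜ[R] m) ∈ LinearMap.ker π := by
        rw [hker]
        exact Submodule.smul_mem_smul (hb a) trivial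
      rw [h1, map_add, LinearMap.mem_ker.mp h2, add_zero]

end Groth.Agent.Gaga.H940.ThetaBij
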